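import Mathlib

set_option autoImplicit false

namespace Cfsg.Agent.Lib.Helper90.Dihedral

/-- An element of order two squares to one. -/
theorem mul_self_of_orderOf_two {G : Type*} [Group G] {a : G} (h : orderOf a = 2) : a * a = 1 := by
  have := pow_orderOf_eq_one a
  rw [h, pow_two] at this
  exact this

/-- A conjugate of an element squaring to one squares to one. -/
theorem conj_mul_self {G : Type*} [Group G] {a : G} (h : a * a = 1) (c : G) :
    (c * a * c⁻¹) * (c * a * c⁻¹) = 1 := by
  calc (c * a * c⁻¹) * (c * a * c⁻¹) = c * (a * a) * c⁻¹ := by simp [mul_assoc]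
    _ = 1 := by rw [h]; simp

theorem inv_eq_self_of_mul_self {G : Type*} [Group G] {a : G} (h : a * a = 1) : a⁻¹ = a :=
  inv_eq_of_mul_eq_one_left h

/-- For involutions `a`, `b`, conjugation by `a` inverts `a * b`. -/
theorem conj_mul_eq_inv {G : Type*} [Group G] {a b : G} (ha : a * a = 1) (hb : b * b = 1) :
    a * (a * b) * a⁻¹ = (a * b)⁻¹ := by
  rw [mul_inv_rev, inv_eq_self_of_mul_self ha, inv_eq_self_of_mul_self hb, ← mul_assoc, ha, one_mul]

/-- For involutions `a`, `b`, conjugation by `b` inverts `a * b`. -/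
theorem conj_mul_eq_inv' {G : Type*} [Group G] {a b : G} (ha : a * a = 1) (hb : b * b = 1) :
    b * (a * b) * b⁻¹ = (a * b)⁻¹ := by
  rw [mul_inv_rev, inv_eq_self_of_mul_self ha, inv_eq_self_of_mul_self hb, mul_assoc, mul_assoc, hb,
    mul_one]

theorem conj_pow_eq_inv {G : Type*} [Group G] {a r : G} (h : a * r * a⁻¹ = r⁻¹) (k : ℕ) :
    a * r ^ k * a⁻¹ = (r ^ k)⁻¹ := by
  rw [← conj_pow, h, inv_pow]

/-- If `a` inverts `s` by conjugation then `a * s⁻¹ = s * a`. -/
theorem mul_inv_eq_of_conj {G : Type*} [Group G] {a s : G} (h : a * s * a⁻¹ = s⁻¹) :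
    a * s⁻¹ = s * a := by
  have h1 : a * s = s⁻¹ * a := by
    have := congrArg (fun t => t * a) h
    simpa [mul_assoc] using this
  have h2 : s * (a * s) = a := by rw [h1]; simp
  calc a * s⁻¹ = s * (a * s) * s⁻¹ := by rw [h2]
    _ = s * a := by simp [mul_assoc]

/-- In the dihedral group generated by involutions `a`, `b`: an odd power of `a * b` is `a` times
a conjugate of `b`. -/
theorem mul_conj_odd {G : Type*} [Group G] {a b : G} (ha : a * a = 1) (hb : b * b = 1) (k : ℕ) :
    a * (((a * b) ^ k)⁻¹ * b * (a * b) ^ k) = (a * b) ^ (2 * k + 1) := by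
  have h1 := mul_inv_eq_of_conj (conj_pow_eq_inv (conj_mul_eq_inv ha hb) k)
  calc a * (((a * b) ^ k)⁻¹ * b * (a * b) ^ k)
      = (a * ((a * b) ^ k)⁻¹) * b * (a * b) ^ k := by simp [mul_assoc]
    _ = (a * b) ^ k * a * b * (a * b) ^ k := by rw [h1]
    _ = (a * b) ^ k * (a * b) * (a * b) ^ k := by simp [mul_assoc]
    _ = (a * b) ^ (2 * k + 1) := by
      rw [show 2 * k + 1 = k + 1 + k by ring, pow_add, pow_add, pow_one]

/-- In the dihedral group generated by involutions `a`, `b`: an even power of `a * b` is `a` times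
a conjugate of `a`. -/
theorem mul_conj_even {G : Type*} [Group G] {a b : G} (ha : a * a = 1) (hb : b * b = 1) (k : ℕ) :
    a * (((a * b) ^ k)⁻¹ * a * (a * b) ^ k) = (a * b) ^ (2 * k) := by
  have h1 := mul_inv_eq_of_conj (conj_pow_eq_inv (conj_mul_eq_inv ha hb) k)
  calc a * (((a * b) ^ k)⁻¹ * a * (a * b) ^ k)
      = (a * ((a * b) ^ k)⁻¹) * a * (a * b) ^ k := by simp [mul_assoc]
    _ = (a * b) ^ k * (a * a) * (a * b) ^ k := by rw [h1]; simp [mul_assoc]
    _ = (a * b) ^ (2 * k) := by
      rw [ha, mul_one, two_mul, pow_add]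

/-- Two involutions whose product has odd order are conjugate. -/
theorem conj_of_pow_odd_eq_one {G : Type*} [Group G] {a b : G} (ha : a * a = 1) (hb : b * b = 1)
    (k : ℕ) (h : (a * b) ^ (2 * k + 1) = 1) : ((a * b) ^ k)⁻¹ * b * (a * b) ^ k = a := by
  have h1 := mul_conj_odd ha hb k
  rw [h] at h1
  have h2 : ((a * b) ^ k)⁻¹ * b * (a * b) ^ k = a⁻¹ := by
    exact (inv_eq_of_mul_eq_one_right h1).symm
  rw [h2, inv_eq_self_of_mul_self ha]

/-- If `x` is inverted by conjugation by `c` and squares to one, then `c` commutes with `x`. -/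
theorem comm_of_conj_inv_of_mul_self {G : Type*} [Group G] {c x : G} (h : c * x * c⁻¹ = x⁻¹)
    (hx : x * x = 1) : c * x = x * c := by
  rw [inv_eq_self_of_mul_self hx] at h
  have := congrArg (fun t => t * c) h
  simpa [mul_assoc] using this

end Cfsg.Agent.Lib.Helper90.Dihedral
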