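import Mathlib
import Cfsg.Prelude.Def_MonsterType
import Cfsg.Agent.Lib.Helper90.Basic
import Cfsg.Agent.Lib.Helper90.PGroup
import Cfsg.Agent.Lib.Helper90.Conj
import Cfsg.Agent.Lib.Helper90.Extraspecial
import Cfsg.Agent.Lib.Helper90.Invert
import Cfsg.Agent.Lib.Helper71.Fitting
import Cfsg.Agent.Lib.Helper21.FStar
import Cfsg.Agent.Lib.Helper29.Basic
import Cfsg.Agent.S5422

set_option autoImplicit false

namespace Cfsg.Agent.Lib.Helper90.FStarES

open Cfsg.Agent.Lib.Helper90.Conj

/-- Being extraspecial is invariant under isomorphism. -/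
theorem isExtraspecial_of_mulEquiv {P P' : Type*} [Group P] [Group P'] {p : ℕ} (e : P ≃* P')
    (h : Cfsg.IsExtraspecial p P) : Cfsg.IsExtraspecial p P' := by
  obtain ⟨⟨hp, hfr, hcomm⟩, hcard⟩ := h
  have hcen : ∀ x : P', x ∈ Subgroup.center P' ↔ e.symm x ∈ Subgroup.center P := by
    intro x
    rw [Subgroup.mem_center_iff, Subgroup.mem_center_iff]
    constructor
    · intro hx g
      have := congrArg e.symm (hx (e g))
      simpa using this
    · intro hx g
      have := congrArg e (hx (e.symm g))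
      simpa using this
  have hfrat : ∀ x : P', x ∈ frattini P' ↔ e.symm x ∈ frattini P := by
    intro x
    constructor
    · intro hx
      exact frattini_le_comap_frattini_of_surjective (φ := e.symm.toMonoidHom) e.symm.surjective hx
    · intro hx
      have := frattini_le_comap_frattini_of_surjective (φ := e.toMonoidHom) e.surjective hx
      simpa using this
  have hmap : (Subgroup.center P).map e.toMonoidHom = Subgroup.center P' := by
    ext x
    rw [hcen]
    constructor
    · rintro ⟨y, hy, rfl⟩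
      simpa using hy
    · intro hx
      exact ⟨e.symm x, hx, by simp⟩
  refine ⟨⟨hp.of_equiv e, ?_, ?_⟩, ?_⟩
  · ext x
    rw [hfrat, hcen, hfr]
  · have h1 : commutator P' = (commutator P).map e.toMonoidHom := by
      rw [commutator_def, commutator_def, Subgroup.map_commutator,
        Subgroup.map_top_of_surjective _ e.surjective]
    rw [h1, hcomm, hmap]
  · rw [← hmap, Subgroup.card_map_of_injective e.injective]
    exact hcard

variable {G : Type*} [Group G]

/-- An involution `z` and an extraspecial 2-subgroup `Q` containing `z` in its centre which is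
normalized by the centralizer `H` of `z` and contains its own centralizer in `H`
(for instance `Q = F*(H)`). -/
structure Setup (z : G) (Q : Subgroup G) : Prop where
  z2 : orderOf z = 2
  zQ : z ∈ Q
  comm : ∀ q ∈ Q, q * z = z * q
  es : Cfsg.IsExtraspecial 2 ↥Q
  norm : ∀ h : G, h * z = z * h → ∀ q ∈ Q, h * q * h⁻¹ ∈ Q
  cent : ∀ c : G, c * z = z * c → (∀ q ∈ Q, c * q = q * c) → c ∈ Q

section
variable {z : G} {Q : Subgroup G}

theorem Setup.z1 (h : Setup z Q) : z ≠ 1 := by
  intro h1
  have := h.z2
  rw [h1, orderOf_one] at this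
  omega

theorem Setup.zz (h : Setup z Q) : z * z = 1 := by
  have := pow_orderOf_eq_one z
  rwa [h.z2, pow_two] at this

theorem Setup.z_mem_center (h : Setup z Q) : z ∈ (Subgroup.center ↥Q).map Q.subtype := by
  refine ⟨⟨z, h.zQ⟩, ?_, rfl⟩
  rw [SetLike.mem_coe, Subgroup.mem_center_iff]
  intro q
  exact Subtype.ext (h.comm q q.2)

theorem Setup.center_cases (h : Setup z Q) {y : G}
    (hy : y ∈ (Subgroup.center ↥Q).map Q.subtype) : y = 1 ∨ y = z := by
  by_cases hy1 : y = 1
  · exact Or.inl hy1
  · exact Or.inr (PGroup.eq_of_mem_center_map h.es.2 hy h.z_mem_center hy1 h.z1)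

theorem Setup.centralizer_eq (h : Setup z Q) :
    Subgroup.centralizer (Q : Set G) = (Subgroup.center ↥Q).map Q.subtype := by
  apply le_antisymm
  · intro c hc
    rw [Subgroup.mem_centralizer_iff] at hc
    have hcz : c * z = z * c := (hc z h.zQ).symm
    have hcQ : c ∈ Q := h.cent c hcz (fun q hq => (hc q hq).symm)
    refine ⟨⟨c, hcQ⟩, ?_, rfl⟩
    rw [SetLike.mem_coe, Subgroup.mem_center_iff]
    intro q
    exact Subtype.ext (hc q q.2)
  · intro c hc
    rw [Subgroup.mem_centralizer_iff]
    intro q hq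
    exact PGroup.center_map_comm Q hc hq

theorem Setup.centralizer_le (h : Setup z Q) :
    Subgroup.centralizer (((Subgroup.center ↥Q).map Q.subtype : Subgroup G) : Set G) ≤
      Subgroup.normalizer (Q : Set G) := by
  intro c hc
  rw [Subgroup.mem_centralizer_iff] at hc
  have hcz : c * z = z * c := (hc z h.z_mem_center).symm
  apply mem_normalizer_of_conj (h.norm c hcz)
  intro q hq
  have hcz' : c⁻¹ * z = z * c⁻¹ := by
    have := congrArg (fun u => c⁻¹ * u * c⁻¹) hcz
    simpa [mul_assoc] using this.symm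
  have := h.norm c⁻¹ hcz' q hq
  simpa using this

/-- An element centralizing `Q` is `1` or `z`. -/
theorem Setup.eq_of_centralizes (h : Setup z Q) {c : G} (hc : ∀ q ∈ Q, c * q = q * c) :
    c = 1 ∨ c = z := by
  apply h.center_cases
  rw [← h.centralizer_eq, Subgroup.mem_centralizer_iff]
  intro q hq
  exact (hc q hq).symm

/-- A normal subgroup not containing `z` is trivial, if `Q` is large. -/
theorem Setup.eq_bot_of_not_mem [Finite G] (h : Setup z Q) (hL : Cfsg.IsLargeExtraspecial Q)
    (N : Subgroup G) [hN : N.Normal] (hz : z ∉ N) : N = ⊥ := by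
  have hQ2 : IsPGroup 2 ↥Q := h.es.1.1
  have : Fact (Nat.Prime 2) := ⟨Nat.prime_two⟩
  -- N ∩ Q = 1
  have h1 : N ⊓ Q = ⊥ := by
    by_contra hne
    have hnil : Group.IsNilpotent ↥Q := hQ2.isNilpotent
    have hnorm : Q ≤ Subgroup.normalizer ((N ⊓ Q : Subgroup G) : Set G) := by
      apply le_normalizer_of_conj
      intro q hq x hx
      exact ⟨hN.conj_mem x hx.1 q, Q.mul_mem (Q.mul_mem hq hx.2) (Q.inv_mem hq)⟩
    have h2 := Helper71.Fitting.inf_centralizer_ne_bot Q (N ⊓ Q) hnil inf_le_right hne hnorm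
    apply h2
    rw [eq_bot_iff]
    rintro x ⟨⟨hxN, -⟩, hxC⟩
    rw [Subgroup.mem_bot]
    rw [h.centralizer_eq] at hxC
    rcases h.center_cases hxC with hx | hx
    · exact hx
    · rw [hx] at hxN
      exact absurd hxN hz
  -- C_N(z) = 1
  have h2 : ∀ n ∈ N, z * n = n * z → n = 1 := by
    intro n hn hnz
    have hnQ : ∀ q ∈ Q, n * q = q * n := by
      intro q hq
      have h3 : n * q * n⁻¹ * q⁻¹ ∈ N ⊓ Q := by
        refine ⟨?_, Q.mul_mem (h.norm n hnz.symm q hq) (Q.inv_mem hq)⟩
        have := N.mul_mem hn (hN.conj_mem n⁻¹ (N.inv_mem hn) q)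
        simpa [mul_assoc] using this
      rw [h1, Subgroup.mem_bot] at h3
      have := congrArg (fun u => u * q * n) h3
      simpa [mul_assoc] using this
    rcases h.eq_of_centralizes hnQ with h3 | h3
    · exact h3
    · rw [h3] at hn
      exact absurd hn hz
  -- z inverts N
  have h3 : ∀ n ∈ N, z * n * z⁻¹ = n⁻¹ :=
    Invert.inverts_of_fixed_point_free N z h.zz (fun k hk => hN.conj_mem k hk z) h2
  -- N has odd order
  have h4 : Odd (Nat.card N) := by
    rw [← Nat.not_even_iff_odd]
    intro heven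
    obtain ⟨u, hu⟩ := exists_prime_orderOf_dvd_card' (G := N) 2 (even_iff_two_dvd.mp heven)
    have hu2 : (u : G) * u = 1 := by
      have := pow_orderOf_eq_one u
      rw [hu, pow_two] at this
      exact congrArg Subtype.val this
    have hu1 : (u : G) ≠ 1 := by
      intro h5
      have : u = 1 := Subtype.ext h5
      rw [this, orderOf_one] at hu
      omega
    apply hu1
    apply h2 u u.2
    have h5 := h3 u u.2
    have h6 : (u : G)⁻¹ = u := inv_eq_of_mul_eq_one_right hu2
    rw [h6] at h5
    have := congrArg (fun v => v * z) h5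
    simpa [mul_assoc] using this
  exact hL.2.2.2 N h4 (le_normalizer_of_conj (fun q _ x hx => hN.conj_mem x hx q))

/-- A normal subgroup containing the centralizer of `z` is the whole group (Frattini
argument). -/
theorem Setup.eq_top_of_centralizer_le [Finite G] (h : Setup z Q) (N : Subgroup G)
    [hN : N.Normal] (hH : ∀ c : G, c * z = z * c → c ∈ N) : N = ⊤ := by
  have : Fact (Nat.Prime 2) := ⟨Nat.prime_two⟩
  have hQ2 : IsPGroup 2 ↥Q := h.es.1.1
  have hQN : Q ≤ N := fun q hq => hH q (h.comm q hq)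
  have hQ2' : IsPGroup 2 ↥(Q.subgroupOf N) := hQ2.comap_subtype
  obtain ⟨T, hT⟩ := hQ2'.exists_le_sylow
  have hF := Sylow.normalizer_sup_eq_top T
  have hT2 : IsPGroup 2 ↥((T : Subgroup N).map N.subtype) := T.isPGroup'.map _
  have hQT : Q ≤ (T : Subgroup N).map N.subtype := by
    intro q hq
    exact ⟨⟨q, hQN hq⟩, hT (Subgroup.mem_subgroupOf.mpr hq), rfl⟩
  generalize (T : Subgroup N).map N.subtype = TG at hF hT2 hQT
  have hTne : TG ≠ ⊥ := by
    intro hb
    have : z ∈ TG := hQT h.zQ
    rw [hb, Subgroup.mem_bot] at this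
    exact h.z1 this
  obtain ⟨c, hcT, hc1, hcc⟩ := PGroup.exists_central_ne_one TG hT2 hTne
  have hcz : c = z := by
    rcases h.eq_of_centralizes (fun q hq => (hcc q (hQT hq)).symm) with h1 | h1
    · exact absurd h1 hc1
    · exact h1
  have hNT : Subgroup.normalizer (TG : Set G) ≤ N := by
    intro n hn
    apply hH
    have h2 : ∀ q ∈ Q, (n * z * n⁻¹) * q = q * (n * z * n⁻¹) := by
      intro q hq
      have h3 : n⁻¹ * q * n ∈ TG := inv_conj_mem_of_mem_normalizer hn (hQT hq)
      have h4 := hcc _ h3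
      rw [hcz] at h4
      calc n * z * n⁻¹ * q = n * (z * (n⁻¹ * q * n)) * n⁻¹ := by group
        _ = n * ((n⁻¹ * q * n) * z) * n⁻¹ := by rw [h4]
        _ = q * (n * z * n⁻¹) := by group
    rcases h.eq_of_centralizes h2 with h5 | h5
    · exfalso
      apply h.z1
      have := congrArg (fun u => n⁻¹ * u * n) h5
      simpa [mul_assoc] using this
    · have := congrArg (fun u => u * n) h5
      simpa [mul_assoc] using this
  rw [eq_top_iff, ← hF]
  exact sup_le hNT le_rfl

end

/-- The set-up holds when `Q` is the generalized Fitting subgroup of the centralizer of `z`. -/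
theorem Setup.of_gfs [Finite G] {z : G} (hz : orderOf z = 2) {Q : Subgroup G}
    (hF : (Cfsg.generalizedFittingSubgroup ↥(Subgroup.centralizer ({z} : Set G))).map
      (Subgroup.centralizer ({z} : Set G)).subtype = Q)
    (hQ : Cfsg.IsExtraspecial 2 ↥Q) : Setup z Q := by
  have hmemH : ∀ c : G, c ∈ Subgroup.centralizer ({z} : Set G) ↔ c * z = z * c := by
    intro c
    rw [Subgroup.mem_centralizer_iff]
    constructor
    · intro h
      exact (h z (Set.mem_singleton z)).symm
    · intro h u hu
      rw [Set.mem_singleton_iff] at hu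
      rw [hu]; exact h.symm
  have hzH : z ∈ Subgroup.centralizer ({z} : Set G) := (hmemH z).mpr rfl
  have hQH : ∀ q ∈ Q, q * z = z * q := by
    intro q hq
    rw [← hF] at hq
    obtain ⟨q', -, rfl⟩ := hq
    exact (hmemH _).mp q'.2
  have hn := Helper29.Basic.generalizedFittingSubgroup_normal
    ↥(Subgroup.centralizer ({z} : Set G))
  refine ⟨hz, ?_, hQH, hQ, ?_, ?_⟩
  · rw [← hF]
    refine ⟨⟨z, hzH⟩, ?_, rfl⟩
    apply Helper29.Basic.center_le_generalizedFittingSubgroup
    rw [Subgroup.mem_center_iff]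
    intro c
    exact Subtype.ext ((hmemH _).mp c.2)
  · intro h hh q hq
    rw [← hF] at hq ⊢
    obtain ⟨q', hq', rfl⟩ := hq
    exact ⟨⟨h, (hmemH h).mpr hh⟩ * q' * ⟨h, (hmemH h).mpr hh⟩⁻¹, hn.conj_mem q' hq' _, rfl⟩
  · intro c hc hcQ
    rw [← hF]
    refine ⟨⟨c, (hmemH c).mpr hc⟩, ?_, rfl⟩
    apply Helper21.FStar.centralizer_gfs_le
    rw [Subgroup.mem_centralizer_iff]
    intro q' hq'
    apply Subtype.ext
    have hqQ : (q' : G) ∈ Q := by
      rw [← hF]
      exact ⟨q', hq', rfl⟩
    exact (hcQ _ hqQ).symm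

/-- If some conjugate of `z` other than `z` lies in `Q` (of width at least two), then `Q` is a
large extraspecial subgroup. -/
theorem Setup.large_of_conj [Finite G] {z : G} {Q : Subgroup G} (h : Setup z Q) (w : ℕ)
    (hw : 2 ≤ w) (hcard : Nat.card ↥Q = 2 ^ (2 * w + 1)) (g : G) (hgQ : g * z * g⁻¹ ∈ Q)
    (hgz : g * z * g⁻¹ ≠ z) : Cfsg.IsLargeExtraspecial Q := by
  refine (Cfsg.Agent.S5422.result Q h.es h.centralizer_eq h.centralizer_le w hw hcard g ?_ ?_).2.2
  · intro hg
    have h1 := conj_mem_of_mem_normalizer hg h.z_mem_center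
    rcases h.center_cases h1 with h2 | h2
    · apply h.z1
      have := congrArg (fun u => g⁻¹ * u * g) h2
      simpa [mul_assoc] using this
    · exact hgz h2
  · rintro _ ⟨y, hy, rfl⟩
    rcases h.center_cases hy with h2 | h2
    · rw [h2]
      simp
    · rw [h2]
      simpa [MulAut.conj_apply] using hgQ

/-- The subgroup generated by a conjugation-invariant set is normal. -/
theorem closure_normal_of_conj {S : Set G} (h : ∀ g : G, ∀ x ∈ S, g * x * g⁻¹ ∈ S) :
    (Subgroup.closure S).Normal := by
  constructor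
  intro n hn g
  induction hn using Subgroup.closure_induction with
  | mem x hx => exact Subgroup.subset_closure (h g x hx)
  | one => simp
  | mul x y _ _ ihx ihy =>
    have e : g * (x * y) * g⁻¹ = (g * x * g⁻¹) * (g * y * g⁻¹) := by group
    rw [e]
    exact Subgroup.mul_mem _ ihx ihy
  | inv x _ ih =>
    have e : g * x⁻¹ * g⁻¹ = (g * x * g⁻¹)⁻¹ := by group
    rw [e]
    exact Subgroup.inv_mem _ ih

end Cfsg.Agent.Lib.Helper90.FStarES
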