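import Mathlib
import Cfsg.Agent.Lib.Helper25.ACStmt
import Cfsg.Agent.Lib.Helper25.ACOddStmt

set_option autoImplicit false

/-!
S3911 piece BURN (helper90): Burnside's transfer theorem gives a normal `p`-complement inside `M`.
-/

namespace Cfsg.Agent.Lib.Helper90.AOBURN

open Cfsg.Agent.Lib.Helper25.ACStmt Cfsg.Agent.Lib.Helper25.ACOddStmt

universe u

theorem main (hA : BurnA.{u}) : Burn.{u} := by
  intro G _ _ p _ P hcyc M hM hPM hsup
  have hP := hA G p P hcyc M hM hPM hsup
  have hcompl := MonoidHom.ker_transferSylow_isComplement' P hP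
  refine ⟨(MonoidHom.transferSylow P hP).ker, MonoidHom.normal_ker _, ?_, hcompl.card_mul_card⟩
  intro k hk
  -- `G ⧸ M` is a `p`-group
  have hmap : (P : Subgroup G).map (QuotientGroup.mk' M) = ⊤ := by
    have h1 : (M ⊔ (P : Subgroup G)).map (QuotientGroup.mk' M) = ⊤ := by
      rw [hsup, ← MonoidHom.range_eq_map, MonoidHom.range_eq_top]
      exact QuotientGroup.mk'_surjective M
    rw [Subgroup.map_sup] at h1
    have h2 : M.map (QuotientGroup.mk' M) = ⊥ := by
      rw [Subgroup.map_eq_bot_iff, QuotientGroup.ker_mk']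
    rwa [h2, bot_sup_eq] at h1
  have hpg : ∀ g : G ⧸ M, ∃ n : ℕ, g ^ p ^ n = 1 := by
    intro g
    have hg : g ∈ (P : Subgroup G).map (QuotientGroup.mk' M) := by rw [hmap]; trivial
    obtain ⟨x, hx, rfl⟩ := hg
    obtain ⟨n, hn⟩ := P.isPGroup' ⟨x, hx⟩
    refine ⟨n, ?_⟩
    rw [← map_pow]
    have h3 : x ^ p ^ n = 1 := by
      have := congrArg Subtype.val hn
      simpa using this
    rw [h3, map_one]
  -- `#K` is prime to `p`
  have hidx : (P : Subgroup G).index = Nat.card ↥(MonoidHom.transferSylow P hP).ker :=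
    hcompl.index_eq_card
  have hndvd : ¬ p ∣ Nat.card ↥(MonoidHom.transferSylow P hP).ker := by
    rw [← hidx]
    exact P.not_dvd_index
  have hpp : p.Prime := Fact.out
  obtain ⟨n, hn⟩ := hpg (QuotientGroup.mk' M k)
  have h4 : orderOf (QuotientGroup.mk' M k) ∣ p ^ n := orderOf_dvd_of_pow_eq_one hn
  have h5 : orderOf (QuotientGroup.mk' M k) ∣ Nat.card ↥(MonoidHom.transferSylow P hP).ker :=
    (orderOf_map_dvd (QuotientGroup.mk' M) k).trans (Subgroup.orderOf_dvd_natCard _ hk)
  have hcop : Nat.Coprime (p ^ n) (Nat.card ↥(MonoidHom.transferSylow P hP).ker) :=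
    Nat.Coprime.pow_left n ((Nat.Prime.coprime_iff_not_dvd hpp).mpr hndvd)
  have h6 : orderOf (QuotientGroup.mk' M k) = 1 :=
    Nat.eq_one_of_dvd_coprimes hcop h4 h5
  have h7 : QuotientGroup.mk' M k = 1 := orderOf_eq_one_iff.mp h6
  exact (QuotientGroup.eq_one_iff k).mp h7

end Cfsg.Agent.Lib.Helper90.AOBURN
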