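import Mathlib
import Cfsg.Agent.Lib.Helper12.AOStmt

/-!
S4068 piece IDX2 (helper90, second seat): a Sylow 2-subgroup of order 2 has a normal complement
(Burnside transfer for a cyclic Sylow subgroup of the smallest prime).
-/

set_option autoImplicit false

universe u

namespace Cfsg.Agent.Lib.Helper90.AOIDX2

open Cfsg.Agent.Lib.Helper12

theorem main : AOStmt.Idx2.{u} := by
  intro G _ _ T hT
  have h2 : (Nat.card G).minFac = 2 := by
    rw [Nat.minFac_eq_two_iff]
    rw [← hT]
    exact Subgroup.card_subgroup_dvd_card _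
  have hcyc : IsCyclic (T : Subgroup G) := by
    have : Fact (Nat.Prime 2) := ⟨Nat.prime_two⟩
    exact isCyclic_of_prime_card (p := 2) hT
  exact ⟨_, inferInstance, IsCyclic.isComplement' h2 hcyc⟩

end Cfsg.Agent.Lib.Helper90.AOIDX2
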