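import Mathlib
import Cfsg.Agent.Lib.Helper44.SPStmt
import Cfsg.Agent.Lib.Helper90.SPEVEN

set_option autoImplicit false

/-! Piece S2720/DISCSQ: the discriminant formula. -/

namespace Cfsg.Agent.Lib.Helper90.SPDISCSQ

open Matrix Polynomial
open Cfsg.Agent.Lib.Helper44.SPStmt
open Cfsg.Agent.Lib.Helper44.SMStmt

universe u

variable {F : Type u} [Field F]

theorem det_J_eq_one (k : ℕ) : (Matrix.J (Fin k) F).det = 1 := by
  have h1 : Matrix.J (Fin k) F * Matrix.fromBlocks (1 : Matrix (Fin k) (Fin k) F) 1 0 1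
      = Matrix.fromBlocks (0 : Matrix (Fin k) (Fin k) F) (-1) 1 1 := by
    rw [Matrix.J, Matrix.fromBlocks_multiply]
    simp
  have h2 := congrArg Matrix.det h1
  rw [Matrix.det_mul, Matrix.det_fromBlocks_zero₂₁, Matrix.det_one,
    Matrix.det_fromBlocks_one₂₂] at h2
  simpa using h2

theorem main : EvenCard.{u} → Darboux.{u} → DiscSq.{u} := by
  intro hE hD F _ ι _ _ s N h2 hs hN r hr hsr hfix
  obtain ⟨k, hk⟩ := hE F ι s N h2 hs hN r hr hsr hfix
  have hk' : Fintype.card ι = 2 * k := by rw [hk]; ring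
  obtain ⟨T, hST, hTS, hAT, hdet, hdetA, hsdet⟩ :=
    Cfsg.Agent.Lib.Helper90.SPEVEN.alt_core h2 hs hN hr hsr hfix
  obtain ⟨e, P, hP, hJ⟩ := hD F ι _ k h2 hAT hdet hk'
  have h1 := congrArg Matrix.det hJ
  rw [Matrix.det_submatrix_equiv_self, Matrix.det_mul, Matrix.det_mul, Matrix.det_transpose,
    det_J_eq_one] at h1
  have hTdet : T.det = 1 := by
    have h5 := congrArg Matrix.det hST
    rw [Matrix.det_mul, hsdet, one_mul, Matrix.det_one] at h5
    exact h5
  have hpow : ((-1 : F)) ^ Fintype.card ι = 1 := by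
    rw [hk', pow_mul, neg_one_sq, one_pow]
  have hc1 : s.charpoly.eval 1 = (s - 1).det := by
    rw [Matrix.eval_charpoly]
    have h6 : Matrix.scalar ι (1 : F) - s = -(s - 1) := by simp
    rw [h6, Matrix.det_neg, hpow, one_mul]
  have hc2 : s.charpoly.eval (-1) = (s + 1).det := by
    rw [Matrix.eval_charpoly]
    have h6 : Matrix.scalar ι (-1 : F) - s = -(s + 1) := by
      rw [map_neg, map_one]
      abel
    rw [h6, Matrix.det_neg, hpow, one_mul]
  refine ⟨P.det⁻¹, inv_ne_zero hP, ?_⟩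
  rw [hc1, hc2]
  rw [hdetA, hTdet, one_mul] at h1
  field_simp
  linear_combination h1

end Cfsg.Agent.Lib.Helper90.SPDISCSQ
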